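import Mathlib

set_option autoImplicit false

/-!
# The hypothesis "p-subgroups of equal order are conjugate" passes to quotients
(helper91; for S4020 / S4019 / S4021-type statements)
-/

namespace Cfsg.Agent.Lib.Helper91.ConjQuot

universe u

/-- a `p`-subgroup of a quotient is the image of a `p`-subgroup of `G` whose order is determined
by the order of the given subgroup -/
theorem exists_lift {G : Type u} [Group G] [Finite G] (N : Subgroup G) [N.Normal] (p : ℕ)
    [Fact p.Prime] (H : Subgroup (G ⧸ N)) (hH : IsPGroup p H) :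
    ∃ H₁ : Subgroup G, IsPGroup p H₁ ∧ H₁.map (QuotientGroup.mk' N) = H ∧
      Nat.card H₁ = p ^ (Nat.card N * Nat.card H).factorization p := by
  obtain ⟨Hh, hHh⟩ : ∃ Hh : Subgroup G, Hh = H.comap (QuotientGroup.mk' N) := ⟨_, rfl⟩
  have hcard : Nat.card Hh = Nat.card N * Nat.card H := by
    have h1 := QuotientGroup.card_preimage_mk N (H : Set (G ⧸ N))
    rw [hHh]
    exact h1
  obtain ⟨Q⟩ : Nonempty (Sylow p Hh) := inferInstance
  obtain ⟨f, hf⟩ : ∃ f : ↥Hh →* ↥H, ∀ x : Hh, ((f x : H) : G ⧸ N) = QuotientGroup.mk' N (x : G) := by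
    subst hHh
    exact ⟨(QuotientGroup.mk' N).subgroupComap H, fun x => rfl⟩
  have hfsurj : Function.Surjective f := by
    intro y
    obtain ⟨x, hx⟩ := QuotientGroup.mk'_surjective N (y : G ⧸ N)
    have hxH : x ∈ Hh := by
      rw [hHh, Subgroup.mem_comap, hx]
      exact y.2
    refine ⟨⟨x, hxH⟩, ?_⟩
    apply Subtype.ext
    rw [hf]
    exact hx
  have hidx1 : ((Q : Subgroup Hh).map f).index ∣ (Q : Subgroup Hh).index :=
    Subgroup.index_map_dvd (Q : Subgroup Hh) hfsurj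
  have hidx2 : ((Q : Subgroup Hh).map f).index ∣ Nat.card H := Subgroup.index_dvd_card _
  obtain ⟨n, hn⟩ := IsPGroup.iff_card.mp hH
  rw [hn] at hidx2
  obtain ⟨k, -, hk⟩ := (Nat.dvd_prime_pow (Fact.out : p.Prime)).mp hidx2
  have hk0 : k = 0 := by
    by_contra hk0
    have h3 : p ∣ ((Q : Subgroup Hh).map f).index := by
      rw [hk]
      exact dvd_pow_self p hk0
    exact Q.not_dvd_index (h3.trans hidx1)
  rw [hk0, pow_zero] at hk
  have htop : (Q : Subgroup Hh).map f = ⊤ := Subgroup.index_eq_one.mp hk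
  refine ⟨(Q : Subgroup Hh).map Hh.subtype, Q.isPGroup'.map _, ?_, ?_⟩
  · apply le_antisymm
    · rintro _ ⟨_, ⟨q, hq, rfl⟩, rfl⟩
      have h4 := (f q).2
      rw [hf] at h4
      exact h4
    · intro y hy
      have h5 : (⟨y, hy⟩ : H) ∈ (Q : Subgroup Hh).map f := by
        rw [htop]
        exact Subgroup.mem_top _
      obtain ⟨q, hq, hqy⟩ := h5
      refine ⟨(q : G), ⟨q, hq, rfl⟩, ?_⟩
      rw [← hf, hqy]
  · have h6 : Nat.card ((Q : Subgroup Hh).map Hh.subtype) = Nat.card (Q : Subgroup Hh) :=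
      Subgroup.card_map_of_injective Hh.subtype_injective
    rw [h6, Sylow.card_eq_multiplicity, hcard]

theorem conj_quot {G : Type u} [Group G] [Finite G] (N : Subgroup G) [N.Normal]
    (hD : ∀ p : ℕ, p.Prime → ∀ H K : Subgroup G, IsPGroup p H → IsPGroup p K →
      Nat.card H = Nat.card K → ∃ g : G, K = H.map (MulAut.conj g).toMonoidHom) :
    ∀ p : ℕ, p.Prime → ∀ H K : Subgroup (G ⧸ N), IsPGroup p H → IsPGroup p K →
      Nat.card H = Nat.card K → ∃ g : G ⧸ N, K = H.map (MulAut.conj g).toMonoidHom := by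
  intro p hp H K hH hK hcard
  haveI : Fact p.Prime := ⟨hp⟩
  obtain ⟨H₁, hH₁, hH₁m, hH₁c⟩ := exists_lift N p H hH
  obtain ⟨K₁, hK₁, hK₁m, hK₁c⟩ := exists_lift N p K hK
  obtain ⟨g, hg⟩ := hD p hp H₁ K₁ hH₁ hK₁ (by rw [hH₁c, hK₁c, hcard])
  refine ⟨QuotientGroup.mk' N g, ?_⟩
  rw [← hK₁m, hg, ← hH₁m, Subgroup.map_map, Subgroup.map_map]
  congr 1

end Cfsg.Agent.Lib.Helper91.ConjQuot
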