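import Mathlib
import Cfsg.Prelude.Def_TwoFusion
import Cfsg.Agent.S3210

set_option autoImplicit false

namespace Cfsg.Agent.Lib.Helper91.FW

open Matrix Cfsg.Agent.Lib.Helper53.SL2Inv Cfsg.Agent.Lib.Helper53.SL2Normal

section SL2

variable {F : Type*} [Field F]

/-- an element of `SL₂(F)` inverting an element of square `-1` has square `-1` -/
theorem sq_of_inverts (h2 : (2 : F) ≠ 0) (A u : SpecialLinearGroup (Fin 2) F)
    (hA : A * A = negOne) (hu : u * A * u⁻¹ = A⁻¹) : u * u = negOne := by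
  have hAuA : A * u * A = u := by
    have h1 : A * (u * A * u⁻¹) = 1 := by rw [hu]; exact mul_inv_cancel A
    calc A * u * A = A * (u * A * u⁻¹) * u := by group
      _ = u := by rw [h1, one_mul]
  obtain ⟨m00, m01, m10, m11⟩ := mul_entries A A
  obtain ⟨n00, n01, n10, n11⟩ := negOne_entries (F := F)
  rw [hA] at m00 m01 m10 m11
  rw [n00] at m00; rw [n01] at m01; rw [n10] at m10; rw [n11] at m11
  have hdet := det_entries A
  have htr : A 0 0 + A 1 1 = 0 := by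
    by_contra hne
    have ha : A 0 0 = 0 := by
      have : A 0 0 * (A 0 0 + A 1 1) = 0 := by linear_combination (-1 : F) * m00 + hdet
      rcases mul_eq_zero.mp this with h | h
      · exact h
      · exact absurd h hne
    have hb : A 0 1 = 0 := by
      have : A 0 1 * (A 0 0 + A 1 1) = 0 := by linear_combination (-1 : F) * m01
      rcases mul_eq_zero.mp this with h | h
      · exact h
      · exact absurd h hne
    rw [ha, hb] at hdet
    simp at hdet
  obtain ⟨e00, e01, e10, e11⟩ := mul_entries (A * u) A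
  obtain ⟨f00, f01, f10, f11⟩ := mul_entries A u
  rw [hAuA] at e00 e11
  rw [f00, f01] at e00
  rw [f10, f11] at e11
  have h2ps : 2 * (u 0 0 + u 1 1) = 0 := by
    linear_combination e00 + e11 - (u 0 0) * m00 - (u 1 1) * m11
      + (u 1 0 * A 0 1 + u 0 1 * A 1 0) * htr
  have hps : u 0 0 + u 1 1 = 0 := by
    rcases mul_eq_zero.mp h2ps with h | h
    · exact absurd h h2
    · exact h
  exact sq_of_trace_zero u hps

/-- every element of square `-1` is inverted by some element -/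
theorem exists_inverting [Fintype F] (hF : Odd (Fintype.card F))
    (A : SpecialLinearGroup (Fin 2) F) (hA : A * A = negOne) :
    ∃ u : SpecialLinearGroup (Fin 2) F, u * A * u⁻¹ = A⁻¹ := by
  obtain ⟨g, hg⟩ := conj_W_of_sq hF A hA
  have hA' : A⁻¹ * A⁻¹ = negOne := by
    have h1 : (A * A)⁻¹ = A⁻¹ * A⁻¹ := by group
    rw [← h1, hA]
    exact inv_eq_of_mul_eq_one_left negOne_mul_negOne
  obtain ⟨g', hg'⟩ := conj_W_of_sq hF A⁻¹ hA'
  refine ⟨g'⁻¹ * g, ?_⟩
  calc g'⁻¹ * g * A * (g'⁻¹ * g)⁻¹ = g'⁻¹ * (g * A * g⁻¹) * g' := by group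
    _ = g'⁻¹ * (g' * A⁻¹ * g'⁻¹) * g' := by rw [hg, hg']
    _ = A⁻¹ := by group

end SL2

/-- facts about a copy `L` of `SL₂(F)`, `|F|` odd, with central involution `j` -/
theorem sl2_loc {G : Type*} [Group G] {F : Type*} [Field F] [Fintype F]
    (hF : Odd (Fintype.card F)) (L : Subgroup G)
    (e : ↥L ≃* Matrix.SpecialLinearGroup (Fin 2) F) (j : G) (hj : orderOf j = 2) (hjL : j ∈ L) :
    (∀ x ∈ L, x * x = 1 → x = 1 ∨ x = j) ∧
    (∀ a ∈ L, a * a = j → ∀ u ∈ L, u * a * u⁻¹ = a⁻¹ → u * u = j) ∧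
    (∀ a ∈ L, a * a = j → ∃ u ∈ L, u * a * u⁻¹ = a⁻¹) := by
  have h2 : (2 : F) ≠ 0 := two_ne_zero_of_odd hF
  have hjj : j * j = 1 := by rw [← pow_two, ← hj, pow_orderOf_eq_one]
  have hj_ne : j ≠ 1 := by intro h; rw [h, orderOf_one] at hj; omega
  have hej : e ⟨j, hjL⟩ = negOne := by
    have h1 : e ⟨j, hjL⟩ * e ⟨j, hjL⟩ = 1 := by
      rw [← map_mul]
      have : (⟨j, hjL⟩ : L) * ⟨j, hjL⟩ = 1 := Subtype.ext hjj
      rw [this, map_one]
    rcases sq_eq_one h2 _ h1 with h | h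
    · exfalso
      have : (⟨j, hjL⟩ : L) = 1 := e.injective (by rw [h, map_one])
      exact hj_ne (congrArg Subtype.val this)
    · exact h
  refine ⟨?_, ?_, ?_⟩
  · intro x hx hxx
    have h1 : e ⟨x, hx⟩ * e ⟨x, hx⟩ = 1 := by
      rw [← map_mul]
      have : (⟨x, hx⟩ : L) * ⟨x, hx⟩ = 1 := Subtype.ext hxx
      rw [this, map_one]
    rcases sq_eq_one h2 _ h1 with h | h
    · left
      have : (⟨x, hx⟩ : L) = 1 := e.injective (by rw [h, map_one])
      exact congrArg Subtype.val this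
    · right
      have : (⟨x, hx⟩ : L) = ⟨j, hjL⟩ := e.injective (by rw [h, hej])
      exact congrArg Subtype.val this
  · intro a ha haa u hu hua
    have h1 : e ⟨a, ha⟩ * e ⟨a, ha⟩ = negOne := by
      rw [← map_mul, ← hej]
      congr 1
      exact Subtype.ext haa
    have h3 : e ⟨u, hu⟩ * e ⟨a, ha⟩ * (e ⟨u, hu⟩)⁻¹ = (e ⟨a, ha⟩)⁻¹ := by
      have h6 : (⟨u, hu⟩ : L) * ⟨a, ha⟩ * (⟨u, hu⟩ : L)⁻¹ = (⟨a, ha⟩ : L)⁻¹ := Subtype.ext hua
      have h7 := congrArg e h6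
      rw [map_mul, map_mul, map_inv, map_inv] at h7
      exact h7
    have h4 := sq_of_inverts h2 _ _ h1 h3
    have h5 : (⟨u, hu⟩ : L) * ⟨u, hu⟩ = ⟨j, hjL⟩ := e.injective (by rw [map_mul, h4, hej])
    exact congrArg Subtype.val h5
  · intro a ha haa
    have h1 : e ⟨a, ha⟩ * e ⟨a, ha⟩ = negOne := by
      rw [← map_mul, ← hej]
      congr 1
      exact Subtype.ext haa
    obtain ⟨U, hU⟩ := exists_inverting hF _ h1
    refine ⟨(e.symm U : L), (e.symm U).2, ?_⟩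
    have h5 : e.symm U * ⟨a, ha⟩ * (e.symm U)⁻¹ = (⟨a, ha⟩ : L)⁻¹ := by
      apply e.injective
      rw [map_mul, map_mul, map_inv, map_inv, e.apply_symm_apply]
      exact hU
    exact congrArg Subtype.val h5

/-- the subgroup generated by the involutions commuting with `z₁` and `z₂` -/
def Om {G : Type*} [Group G] (z₁ z₂ : G) : Subgroup G :=
  Subgroup.closure {w : G | w * z₁ = z₁ * w ∧ w * z₂ = z₂ * w ∧ w * w = 1}

theorem Om_comm {G : Type*} [Group G] (z₁ z₂ : G) : Om z₁ z₂ = Om z₂ z₁ := by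
  unfold Om
  congr 1
  ext w
  constructor
  · rintro ⟨h1, h2, h3⟩; exact ⟨h2, h1, h3⟩
  · rintro ⟨h1, h2, h3⟩; exact ⟨h2, h1, h3⟩

theorem conj_mem_Om {G : Type*} [Group G] (z₁ z₂ g y : G) (hy : y ∈ Om z₁ z₂) :
    g * y * g⁻¹ ∈ Om (g * z₁ * g⁻¹) (g * z₂ * g⁻¹) := by
  have hle : Om z₁ z₂ ≤
      (Om (g * z₁ * g⁻¹) (g * z₂ * g⁻¹)).comap (MulAut.conj g).toMonoidHom := by
    unfold Om
    rw [Subgroup.closure_le]
    rintro w ⟨h1, h2, h3⟩
    rw [SetLike.mem_coe, Subgroup.mem_comap]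
    apply Subgroup.subset_closure
    show (g * w * g⁻¹) * (g * z₁ * g⁻¹) = (g * z₁ * g⁻¹) * (g * w * g⁻¹) ∧
      (g * w * g⁻¹) * (g * z₂ * g⁻¹) = (g * z₂ * g⁻¹) * (g * w * g⁻¹) ∧
      (g * w * g⁻¹) * (g * w * g⁻¹) = 1
    refine ⟨?_, ?_, ?_⟩
    · calc g * w * g⁻¹ * (g * z₁ * g⁻¹) = g * (w * z₁) * g⁻¹ := by group
        _ = g * (z₁ * w) * g⁻¹ := by rw [h1]
        _ = g * z₁ * g⁻¹ * (g * w * g⁻¹) := by group
    · calc g * w * g⁻¹ * (g * z₂ * g⁻¹) = g * (w * z₂) * g⁻¹ := by group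
        _ = g * (z₂ * w) * g⁻¹ := by rw [h2]
        _ = g * z₂ * g⁻¹ * (g * w * g⁻¹) := by group
    · calc g * w * g⁻¹ * (g * w * g⁻¹) = g * (w * w) * g⁻¹ := by group
        _ = 1 := by rw [h3]; group
  exact hle hy

/-- the abstract fusion argument: `j` is isolated -/
theorem isolated_core {G : Type*} [Group G] [Finite G] (L₁ L₂ : Subgroup G) (j n : G)
    (hc : ∀ x ∈ L₁, ∀ y ∈ L₂, x * y = y * x)
    (hj : orderOf j = 2) (hj1 : j ∈ L₁) (hj2 : j ∈ L₂)
    (hmeet : ∀ x, x ∈ L₁ → x ∈ L₂ → x = 1 ∨ x = j)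
    (hcent : ∀ x ∈ L₁ ⊔ L₂, x * j = j * x)
    (hH : ∀ h, h * j = j * h → h ∈ L₁ ⊔ L₂ ∨ n * h ∈ L₁ ⊔ L₂)
    (hn2 : n * n = j)
    (hsw1 : ∀ x ∈ L₁, n * x * n⁻¹ ∈ L₂) (hsw2 : ∀ x ∈ L₂, n * x * n⁻¹ ∈ L₁)
    (hT1 : ∀ x ∈ L₁, x * x = 1 → x = 1 ∨ x = j) (hT1' : ∀ x ∈ L₂, x * x = 1 → x = 1 ∨ x = j)
    (hT2 : ∀ a ∈ L₁, a * a = j → ∀ u ∈ L₁, u * a * u⁻¹ = a⁻¹ → u * u = j)
    (hT2' : ∀ a ∈ L₂, a * a = j → ∀ u ∈ L₂, u * a * u⁻¹ = a⁻¹ → u * u = j)
    (hT3 : ∀ a ∈ L₁, a * a = j → ∃ u ∈ L₁, u * a * u⁻¹ = a⁻¹)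
    (hT3' : ∀ a ∈ L₂, a * a = j → ∃ u ∈ L₂, u * a * u⁻¹ = a⁻¹) :
    Cfsg.IsIsolatedInvolution j := by
  have hjj : j * j = 1 := by rw [← pow_two, ← hj, pow_orderOf_eq_one]
  have hj_ne : j ≠ 1 := by intro h; rw [h, orderOf_one] at hj; omega
  have hjinv : j⁻¹ = j := inv_eq_of_mul_eq_one_left hjj
  have hK : ∀ y ∈ L₁ ⊔ L₂, ∃ a ∈ L₁, ∃ b ∈ L₂, y = a * b :=
    Cfsg.Agent.S3209.mem_sup_of_commute L₁ L₂ hc
  have hL1K : L₁ ≤ L₁ ⊔ L₂ := le_sup_left
  have hL2K : L₂ ≤ L₁ ⊔ L₂ := le_sup_right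
  have hc1 : ∀ x ∈ L₁, x * j = j * x := fun x hx => hcent x (hL1K hx)
  have hc2 : ∀ x ∈ L₂, x * j = j * x := fun x hx => hcent x (hL2K hx)
  -- no involutions of `C(j)` outside `L₁L₂`
  have hS1 : ∀ h, h * j = j * h → h * h = 1 → h ∈ L₁ ⊔ L₂ := by
    intro h hhj hhh
    rcases hH h hhj with hK1 | hK1
    · exact hK1
    · exfalso
      obtain ⟨a, ha, b, hb, hab⟩ := hK _ hK1
      have hh : h = n⁻¹ * (a * b) := by rw [← hab]; group
      obtain ⟨c, hc_def⟩ : ∃ c, c = n * b * n⁻¹ := ⟨_, rfl⟩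
      obtain ⟨d, hd_def⟩ : ∃ d, d = n * a * n⁻¹ := ⟨_, rfl⟩
      have hcL : c ∈ L₁ := by rw [hc_def]; exact hsw2 b hb
      have hdL : d ∈ L₂ := by rw [hd_def]; exact hsw1 a ha
      have e1 : h * h = j⁻¹ * d * c * a * b := by
        rw [hh, hc_def, hd_def, ← hn2]; group
      rw [hhh, hjinv] at e1
      have hdc : d * c = c * d := (hc c hcL d hdL).symm
      have hda : d * a = a * d := (hc a ha d hdL).symm
      have e2 : (c * a) * (d * b) = j := by
        have h0 : j * d * c * a * b = j * ((c * a) * (d * b)) := by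
          calc j * d * c * a * b = j * (d * c) * a * b := by group
            _ = j * (c * d) * a * b := by rw [hdc]
            _ = j * c * (d * a) * b := by group
            _ = j * c * (a * d) * b := by rw [hda]
            _ = j * ((c * a) * (d * b)) := by group
        rw [h0] at e1
        have h3 : j * (c * a * (d * b)) = j * j := by rw [← e1, hjj]
        exact mul_left_cancel h3
      have hP1 : c * a ∈ L₁ := L₁.mul_mem hcL ha
      have hQ2 : d * b ∈ L₂ := L₂.mul_mem hdL hb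
      have hP2 : c * a ∈ L₂ := by
        have h0 : c * a = j * (d * b)⁻¹ := by rw [← e2]; group
        rw [h0]; exact L₂.mul_mem hj2 (L₂.inv_mem hQ2)
      have hbj : b * j = j * b := hc2 b hb
      have e3 : n * (c * a) * n⁻¹ = b * d := by
        calc n * (c * a) * n⁻¹ = (n * n) * b * (n * n)⁻¹ * (n * a * n⁻¹) := by
              rw [hc_def]; group
          _ = j * b * j⁻¹ * d := by rw [hn2, hd_def]
          _ = (j * b) * j⁻¹ * d := by group
          _ = (b * j) * j⁻¹ * d := by rw [hbj]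
          _ = b * d := by group
      rcases hmeet _ hP1 hP2 with hP | hP
      · rw [hP] at e2 e3
        have hbd : b * d = 1 := by rw [← e3]; group
        have hdb : d * b = 1 := by
          have h0 : d = b⁻¹ := eq_inv_of_mul_eq_one_right hbd
          rw [h0]; group
        rw [hdb] at e2
        apply hj_ne
        rw [← e2]; group
      · rw [hP] at e2 e3
        have hnj' : n * j * n⁻¹ = j := by rw [← hn2]; group
        rw [hnj'] at e3
        have hdb : d * b = j := by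
          have h0 : d = b⁻¹ * j := by rw [e3]; group
          rw [h0]
          calc b⁻¹ * j * b = b⁻¹ * (j * b) := by group
            _ = b⁻¹ * (b * j) := by rw [hbj]
            _ = j := by group
        rw [hdb, hjj] at e2
        exact hj_ne e2.symm
  -- involutions of `C(j)` other than `j`
  have hS2 : ∀ t, t * j = j * t → t * t = 1 → t ≠ 1 → t ≠ j →
      ∃ a ∈ L₁, ∃ b ∈ L₂, t = a * b ∧ a * a = j ∧ b * b = j := by
    intro t htj htt ht1 htj'
    obtain ⟨a, ha, b, hb, rfl⟩ := hK t (hS1 t htj htt)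
    have hab : a * b = b * a := hc a ha b hb
    have e1 : (a * a) * (b * b) = 1 := by
      calc (a * a) * (b * b) = a * (a * b) * b := by group
        _ = a * (b * a) * b := by rw [hab]
        _ = (a * b) * (a * b) := by group
        _ = 1 := htt
    have haa2 : a * a ∈ L₂ := by
      have h0 : a * a = (b * b)⁻¹ := eq_inv_of_mul_eq_one_left e1
      rw [h0]; exact L₂.inv_mem (L₂.mul_mem hb hb)
    rcases hmeet _ (L₁.mul_mem ha ha) haa2 with haa | haa
    · exfalso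
      have hbb : b * b = 1 := by rw [haa, one_mul] at e1; exact e1
      rcases hT1 a ha haa with h1 | h1 <;> rcases hT1' b hb hbb with h2 | h2
      · apply ht1; rw [h1, h2, one_mul]
      · apply htj'; rw [h1, h2, one_mul]
      · apply htj'; rw [h1, h2, mul_one]
      · apply ht1; rw [h1, h2, hjj]
    · refine ⟨a, ha, b, hb, rfl, haa, ?_⟩
      rw [haa] at e1
      have h0 : j * (b * b) = j * j := by rw [e1, hjj]
      exact mul_left_cancel h0
  have hOmK : ∀ s, Om j s ≤ L₁ ⊔ L₂ := by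
    intro s
    unfold Om
    rw [Subgroup.closure_le]
    rintro w ⟨h1, -, h3⟩
    exact hS1 w h1 h3
  -- the height step
  have hC1 : ∀ a ∈ L₁, ∀ b ∈ L₂, a * a = j → b * b = j → ∀ k : ℕ,
      (∃ y ∈ Om j (a * b), y ^ (2 ^ k) = a * b) →
        ∃ y ∈ Om j (a * b), y ^ (2 ^ (k + 1)) = j := by
    intro a ha b hb haa hbb k ⟨y, hy, hyk⟩
    obtain ⟨c, hcL, d, hdL, rfl⟩ := hK y (hOmK _ hy)
    have hcd : Commute c d := hc c hcL d hdL
    rw [hcd.mul_pow] at hyk
    have hz1 : a⁻¹ * c ^ (2 ^ k) ∈ L₁ := L₁.mul_mem (L₁.inv_mem ha) (L₁.pow_mem hcL _)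
    have hz2 : a⁻¹ * c ^ (2 ^ k) ∈ L₂ := by
      have h0 : a⁻¹ * c ^ (2 ^ k) = b * (d ^ (2 ^ k))⁻¹ := by
        calc a⁻¹ * c ^ (2 ^ k) = a⁻¹ * (c ^ (2 ^ k) * d ^ (2 ^ k)) * (d ^ (2 ^ k))⁻¹ := by group
          _ = a⁻¹ * (a * b) * (d ^ (2 ^ k))⁻¹ := by rw [hyk]
          _ = b * (d ^ (2 ^ k))⁻¹ := by group
      rw [h0]; exact L₂.mul_mem hb (L₂.inv_mem (L₂.pow_mem hdL _))
    have haj : a * j = j * a := hc1 a ha
    have hcj : c * j = j * c := hc1 c hcL
    have hck : c ^ (2 ^ k) = a ∨ c ^ (2 ^ k) = a * j := by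
      rcases hmeet _ hz1 hz2 with h | h
      · left
        calc c ^ (2 ^ k) = a * (a⁻¹ * c ^ (2 ^ k)) := by group
          _ = a := by rw [h, mul_one]
      · right
        calc c ^ (2 ^ k) = a * (a⁻¹ * c ^ (2 ^ k)) := by group
          _ = a * j := by rw [h]
    have hck1 : c ^ (2 ^ (k + 1)) = j := by
      rw [pow_succ, pow_mul, pow_two]
      rcases hck with h | h
      · rw [h, haa]
      · rw [h]
        calc a * j * (a * j) = a * (j * a) * j := by group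
          _ = a * (a * j) * j := by rw [← haj]
          _ = (a * a) * (j * j) := by group
          _ = j := by rw [haa, hjj, mul_one]
    have hca : c * a = a * c := by
      have h1 : Commute c (c ^ (2 ^ k)) := (Commute.refl c).pow_right _
      rcases hck with h | h
      · rw [h] at h1; exact h1.eq
      · rw [h] at h1
        have h2 : c * (a * j) = a * j * c := h1.eq
        have h3 : c * a * j = a * c * j := by
          calc c * a * j = c * (a * j) := by group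
            _ = a * j * c := h2
            _ = a * (j * c) := by group
            _ = a * (c * j) := by rw [← hcj]
            _ = a * c * j := by group
        exact mul_right_cancel h3
    obtain ⟨u, huL, hua⟩ := hT3 a ha haa
    obtain ⟨v, hvL, hvb⟩ := hT3' b hb hbb
    have huu : u * u = j := hT2 a ha haa u huL hua
    have hvv : v * v = j := hT2' b hb hbb v hvL hvb
    have hua' : u⁻¹ * a * u = a⁻¹ := by
      have h1 : u⁻¹ * (u * a * u⁻¹) * u = a := by group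
      rw [hua] at h1
      calc u⁻¹ * a * u = (u⁻¹ * a⁻¹ * u)⁻¹ := by group
        _ = a⁻¹ := by rw [h1]
    have hu'a : (u⁻¹ * c) * a * (u⁻¹ * c)⁻¹ = a⁻¹ := by
      calc (u⁻¹ * c) * a * (u⁻¹ * c)⁻¹ = u⁻¹ * (c * a) * c⁻¹ * u := by group
        _ = u⁻¹ * (a * c) * c⁻¹ * u := by rw [hca]
        _ = u⁻¹ * a * u := by group
        _ = a⁻¹ := hua'
    have hu'L : u⁻¹ * c ∈ L₁ := L₁.mul_mem (L₁.inv_mem huL) hcL
    have hu'u' : (u⁻¹ * c) * (u⁻¹ * c) = j := hT2 a ha haa _ hu'L hu'a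
    have hv'v' : v⁻¹ * v⁻¹ = j := by
      have h0 : v⁻¹ * v⁻¹ = (v * v)⁻¹ := by group
      rw [h0, hvv, hjinv]
    have hv'b : v⁻¹ * b * (v⁻¹)⁻¹ = b⁻¹ := by
      have h1 : v⁻¹ * (v * b * v⁻¹) * v = b := by group
      rw [hvb] at h1
      calc v⁻¹ * b * (v⁻¹)⁻¹ = (v⁻¹ * b⁻¹ * v)⁻¹ := by group
        _ = b⁻¹ := by rw [h1]
    have hs_inv : a⁻¹ * b⁻¹ = a * b := by
      have h1 : a⁻¹ = a * j := by
        have h0 : a * (a * j) = 1 := by
          calc a * (a * j) = (a * a) * j := by group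
            _ = 1 := by rw [haa, hjj]
        exact inv_eq_of_mul_eq_one_right h0
      have h2 : b⁻¹ = j * b := by
        have h0 : (j * b) * b = 1 := by
          calc (j * b) * b = j * (b * b) := by group
            _ = 1 := by rw [hbb, hjj]
        exact inv_eq_of_mul_eq_one_left h0
      rw [h1, h2]
      calc a * j * (j * b) = a * (j * j) * b := by group
        _ = a * b := by rw [hjj, mul_one]
    have hInv : ∀ x ∈ L₁, ∀ y ∈ L₂, x * a * x⁻¹ = a⁻¹ → y * b * y⁻¹ = b⁻¹ → x * x = j →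
        y * y = j → x * y ∈ Om j (a * b) := by
      intro x hx y hy hxa hyb hxx hyy
      unfold Om
      apply Subgroup.subset_closure
      have hxy : x * y = y * x := hc x hx y hy
      have hya : y * a = a * y := (hc a ha y hy).symm
      have hxb : x * b⁻¹ = b⁻¹ * x := hc x hx b⁻¹ (L₂.inv_mem hb)
      have hxa' : x * a = a⁻¹ * x := by
        calc x * a = (x * a * x⁻¹) * x := by group
          _ = a⁻¹ * x := by rw [hxa]
      have hyb' : y * b = b⁻¹ * y := by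
        calc y * b = (y * b * y⁻¹) * y := by group
          _ = b⁻¹ * y := by rw [hyb]
      show x * y * j = j * (x * y) ∧ x * y * (a * b) = a * b * (x * y) ∧ x * y * (x * y) = 1
      refine ⟨hcent _ (Subgroup.mul_mem _ (hL1K hx) (hL2K hy)), ?_, ?_⟩
      · calc x * y * (a * b) = x * (y * a) * b := by group
          _ = x * (a * y) * b := by rw [hya]
          _ = (x * a) * (y * b) := by group
          _ = (a⁻¹ * x) * (b⁻¹ * y) := by rw [hxa', hyb']
          _ = a⁻¹ * (x * b⁻¹) * y := by group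
          _ = a⁻¹ * (b⁻¹ * x) * y := by rw [hxb]
          _ = (a⁻¹ * b⁻¹) * (x * y) := by group
          _ = a * b * (x * y) := by rw [hs_inv]
      · calc x * y * (x * y) = x * (y * x) * y := by group
          _ = x * (x * y) * y := by rw [← hxy]
          _ = (x * x) * (y * y) := by group
          _ = 1 := by rw [hxx, hyy, hjj]
    have hw : u * v ∈ Om j (a * b) := hInv u huL v hvL hua hvb huu hvv
    have hw' : (u⁻¹ * c) * v⁻¹ ∈ Om j (a * b) :=
      hInv (u⁻¹ * c) hu'L v⁻¹ (L₂.inv_mem hvL) hu'a hv'b hu'u' hv'v'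
    have hcmem : c ∈ Om j (a * b) := by
      have hvc : v * (u⁻¹ * c) = (u⁻¹ * c) * v := (hc _ hu'L v hvL).symm
      have h0 : c = (u * v) * ((u⁻¹ * c) * v⁻¹) := by
        calc c = u * ((u⁻¹ * c) * v) * v⁻¹ := by group
          _ = u * (v * (u⁻¹ * c)) * v⁻¹ := by rw [hvc]
          _ = (u * v) * ((u⁻¹ * c) * v⁻¹) := by group
      rw [h0]
      exact Subgroup.mul_mem _ hw hw'
    exact ⟨c, hcmem, hck1⟩
  -- the main argument
  refine ⟨hj, ?_⟩
  intro g hcomm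
  by_contra hne
  haveI : Fact (Nat.Prime 2) := ⟨Nat.prime_two⟩
  obtain ⟨t', ht'⟩ : ∃ t', t' = g * j * g⁻¹ := ⟨_, rfl⟩
  obtain ⟨t'', ht''⟩ : ∃ t'', t'' = g⁻¹ * j * g := ⟨_, rfl⟩
  rw [← ht'] at hcomm hne
  have ht'j : t' * j = j * t' := hcomm.eq.symm
  have ht't' : t' * t' = 1 := by
    rw [ht']
    calc g * j * g⁻¹ * (g * j * g⁻¹) = g * (j * j) * g⁻¹ := by group
      _ = 1 := by rw [hjj]; group
  have ht'1 : t' ≠ 1 := by
    intro h; rw [ht'] at h
    apply hj_ne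
    calc j = g⁻¹ * (g * j * g⁻¹) * g := by group
      _ = 1 := by rw [h]; group
  have hgt' : g⁻¹ * t' * g = j := by rw [ht']; group
  have ht''j : t'' * j = j * t'' := by
    calc t'' * j = g⁻¹ * (j * t') * g := by rw [ht'', ht']; group
      _ = g⁻¹ * (t' * j) * g := by rw [ht'j]
      _ = j * t'' := by rw [ht'', ht']; group
  have ht''t'' : t'' * t'' = 1 := by
    rw [ht'']
    calc g⁻¹ * j * g * (g⁻¹ * j * g) = g⁻¹ * (j * j) * g := by group
      _ = 1 := by rw [hjj]; group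
  have ht''1 : t'' ≠ 1 := by
    intro h; rw [ht''] at h
    apply hj_ne
    calc j = g * (g⁻¹ * j * g) * g⁻¹ := by group
      _ = 1 := by rw [h]; group
  have ht''ne : t'' ≠ j := by
    intro h
    apply hne
    rw [ht''] at h
    rw [ht']
    calc g * j * g⁻¹ = g * (g⁻¹ * j * g) * g⁻¹ := by rw [h]
      _ = j := by group
  have hgt'' : g * t'' * g⁻¹ = j := by rw [ht'']; group
  obtain ⟨a', ha', b', hb', hab', ha'a', hb'b'⟩ := hS2 t' ht'j ht't' ht'1 hne
  obtain ⟨a'', ha'', b'', hb'', hab'', ha''a'', hb''b''⟩ := hS2 t'' ht''j ht''t'' ht''1 ht''ne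
  have hA : ∀ k : ℕ, (∃ y ∈ Om j t', y ^ (2 ^ k) = j) → ∃ y ∈ Om j t'', y ^ (2 ^ k) = t'' := by
    rintro k ⟨y, hy, hyk⟩
    refine ⟨g⁻¹ * y * g, ?_, ?_⟩
    · have h1 := conj_mem_Om j t' g⁻¹ y hy
      rw [inv_inv, hgt', ← ht'', Om_comm] at h1
      exact h1
    · have h2 : (g⁻¹ * y * g) ^ (2 ^ k) = g⁻¹ * y ^ (2 ^ k) * g := by
        have h0 := conj_pow (a := g⁻¹) (b := y) (i := 2 ^ k)
        rw [inv_inv] at h0
        exact h0
      rw [h2, hyk, ht'']
  have hB : ∀ k : ℕ, (∃ y ∈ Om j t'', y ^ (2 ^ k) = j) → ∃ y ∈ Om j t', y ^ (2 ^ k) = t' := by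
    rintro k ⟨y, hy, hyk⟩
    refine ⟨g * y * g⁻¹, ?_, ?_⟩
    · have h1 := conj_mem_Om j t'' g y hy
      rw [hgt'', ← ht', Om_comm] at h1
      exact h1
    · rw [conj_pow, hyk, ht']
  have hR : ∀ i : ℕ, ∃ y ∈ Om j t', y ^ (2 ^ (2 * i)) = t' := by
    intro i
    induction i with
    | zero =>
      refine ⟨t', ?_, by simp⟩
      unfold Om
      apply Subgroup.subset_closure
      exact ⟨ht'j, rfl, ht't'⟩
    | succ i ih =>
      have h1 : ∃ y ∈ Om j t', y ^ (2 ^ (2 * i + 1)) = j := by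
        have h0 := hC1 a' ha' b' hb' ha'a' hb'b' (2 * i)
        rw [← hab'] at h0
        exact h0 ih
      have h2 := hA _ h1
      have h3 : ∃ y ∈ Om j t'', y ^ (2 ^ (2 * i + 1 + 1)) = j := by
        have h0 := hC1 a'' ha'' b'' hb'' ha''a'' hb''b'' (2 * i + 1)
        rw [← hab''] at h0
        exact h0 h2
      have h4 := hB _ h3
      have e : 2 * (i + 1) = 2 * i + 1 + 1 := by ring
      rw [e]
      exact h4
  obtain ⟨y, -, hy⟩ := hR (Nat.card G)
  have hy1 : ¬ y ^ 2 ^ (2 * Nat.card G) = 1 := by rw [hy]; exact ht'1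
  have hy2 : y ^ 2 ^ (2 * Nat.card G + 1) = 1 := by
    rw [pow_succ, pow_mul, hy, pow_two, ht't']
  have ho := orderOf_eq_prime_pow hy1 hy2
  have hle : orderOf y ≤ Nat.card G := Nat.le_of_dvd Nat.card_pos (orderOf_dvd_natCard y)
  have hlt : Nat.card G < 2 ^ (2 * Nat.card G + 1) := by
    calc Nat.card G < 2 ^ Nat.card G := Nat.lt_two_pow_self
      _ ≤ 2 ^ (2 * Nat.card G + 1) := Nat.pow_le_pow_right (by norm_num) (by omega)
  rw [ho] at hle
  exact absurd hlt (not_lt.mpr hle)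

/-- in the configuration of S3211 the involution `j` is isolated -/
theorem isolated {G : Type*} [Group G] [Finite G]
    {F₁ : Type*} [Field F₁] [Fintype F₁] {F₂ : Type*} [Field F₂] [Fintype F₂]
    (hF₁ : Odd (Fintype.card F₁)) (hF₂ : Odd (Fintype.card F₂)) (L₁ L₂ : Subgroup G)
    (e₁ : ↥L₁ ≃* Matrix.SpecialLinearGroup (Fin 2) F₁)
    (e₂ : ↥L₂ ≃* Matrix.SpecialLinearGroup (Fin 2) F₂)
    (hc : ∀ x ∈ L₁, ∀ y ∈ L₂, x * y = y * x) (j : G) (hj : orderOf j = 2)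
    (hm : L₁ ⊓ L₂ = Subgroup.zpowers j)
    (hle : L₁ ⊔ L₂ ≤ Subgroup.centralizer ({j} : Set G))
    (hi : (L₁ ⊔ L₂).relIndex (Subgroup.centralizer ({j} : Set G)) = 2) (n : G)
    (hn : n ∈ Subgroup.centralizer ({j} : Set G))
    (hn2 : n ^ 2 = j) (hswap : L₁.map (MulAut.conj n).toMonoidHom = L₂) :
    Cfsg.IsIsolatedInvolution j := by
  have hjm : j ∈ L₁ ⊓ L₂ := by rw [hm]; exact Subgroup.mem_zpowers j
  have hj1 : j ∈ L₁ := (Subgroup.mem_inf.mp hjm).1
  have hj2 : j ∈ L₂ := (Subgroup.mem_inf.mp hjm).2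
  have hmeet : ∀ x, x ∈ L₁ → x ∈ L₂ → x = 1 ∨ x = j := by
    intro x h1 h2
    have h0 : x ∈ Subgroup.zpowers j := by rw [← hm]; exact Subgroup.mem_inf.mpr ⟨h1, h2⟩
    exact (Cfsg.Agent.S3210.mem_zpowers_invol j hj x).mp h0
  have hcent : ∀ x ∈ L₁ ⊔ L₂, x * j = j * x := by
    intro x hx
    exact (Subgroup.mem_centralizer_iff.mp (hle hx) j (Set.mem_singleton j)).symm
  have hnn : n * n = j := by rw [← pow_two]; exact hn2
  have hsw1 : ∀ x ∈ L₁, n * x * n⁻¹ ∈ L₂ := by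
    intro x hx
    rw [← hswap]
    exact ⟨x, hx, rfl⟩
  have hsw2 : ∀ x ∈ L₂, n * x * n⁻¹ ∈ L₁ := by
    intro x hx
    rw [← hswap] at hx
    obtain ⟨y, hy, rfl⟩ := hx
    have hyj : y * j = j * y := hcent y (Subgroup.mem_sup_left hy)
    have h0 : n * ((MulAut.conj n).toMonoidHom y) * n⁻¹ = y := by
      show n * (n * y * n⁻¹) * n⁻¹ = y
      calc n * (n * y * n⁻¹) * n⁻¹ = (n * n) * y * (n * n)⁻¹ := by group
        _ = j * y * j⁻¹ := by rw [hnn]
        _ = (j * y) * j⁻¹ := by group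
        _ = (y * j) * j⁻¹ := by rw [hyj]
        _ = y := by group
    rw [h0]; exact hy
  obtain ⟨-, w, ⟨hw1, hwj⟩, hwL, -⟩ := Cfsg.Agent.S3210.sl2_facts hF₂ L₂ e₂ j hj hj2
  have hnK : n ∉ L₁ ⊔ L₂ := by
    intro hnK
    have h1 : ∀ x ∈ L₁, n * x * n⁻¹ ∈ L₁ :=
      Cfsg.Agent.S3210.sup_normalizes_left L₁ L₂ hc n hnK
    have h2 : L₂ ≤ L₁ := by
      rw [← hswap]
      rintro _ ⟨x, hx, rfl⟩
      exact h1 x hx
    rcases hmeet w (h2 hwL) hwL with h | h
    · exact hw1 h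
    · exact hwj h
  have hH : ∀ h, h * j = j * h → h ∈ L₁ ⊔ L₂ ∨ n * h ∈ L₁ ⊔ L₂ := by
    intro h hh
    by_cases hK : h ∈ L₁ ⊔ L₂
    · exact Or.inl hK
    · right
      have hhC : h ∈ Subgroup.centralizer ({j} : Set G) := by
        rw [Subgroup.mem_centralizer_iff]
        intro x hx
        rw [Set.mem_singleton_iff] at hx
        rw [hx]; exact hh.symm
      have hidx : ((L₁ ⊔ L₂).subgroupOf (Subgroup.centralizer ({j} : Set G))).index = 2 := hi
      have h3 := Subgroup.mul_mem_iff_of_index_two hidx (a := ⟨n, hn⟩) (b := ⟨h, hhC⟩)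
      simp only [Subgroup.mem_subgroupOf] at h3
      exact h3.mpr ⟨fun h4 => absurd h4 hnK, fun h4 => absurd h4 hK⟩
  obtain ⟨hT1, hT2, hT3⟩ := sl2_loc hF₁ L₁ e₁ j hj hj1
  obtain ⟨hT1', hT2', hT3'⟩ := sl2_loc hF₂ L₂ e₂ j hj hj2
  exact isolated_core L₁ L₂ j n hc hj hj1 hj2 hmeet hcent hH hnn hsw1 hsw2 hT1 hT1' hT2 hT2'
    hT3 hT3'

end Cfsg.Agent.Lib.Helper91.FW
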